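import Mathlib

/-!
# A Sylow subgroup has a conjugate in every subgroup of index prime to `p`
-/

set_option autoImplicit false

namespace Cfsg.Agent.H240.SylowConj

open scoped Pointwise

variable {G : Type*} [Group G] [Finite G] {p : ℕ} [Fact p.Prime]

/-- `S` is contained in a conjugate of every subgroup of index prime to `p`. -/
theorem exists_le_map_conj (S : Sylow p G) {Y : Subgroup G} (hY : ¬ p ∣ Y.index) :
    ∃ g : G, (S : Subgroup G) ≤ Y.map (MulAut.conj g).toMonoidHom := by
  obtain ⟨S1⟩ : Nonempty (Sylow p Y) := inferInstance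
  have h1 : IsPGroup p ((S1 : Subgroup Y).map Y.subtype) := S1.isPGroup'.map _
  have h2 : ¬ p ∣ ((S1 : Subgroup Y).map Y.subtype).index := by
    have h3 : ((S1 : Subgroup Y).map Y.subtype).index = (S1 : Subgroup Y).index * Y.index := by
      rw [Subgroup.index_map_subtype]
    rw [h3, (Fact.out : p.Prime).dvd_mul, not_or]
    exact ⟨S1.not_dvd_index, hY⟩
  obtain ⟨g, hg⟩ := MulAction.exists_smul_eq G (h1.toSylow h2) S
  refine ⟨g, ?_⟩
  rw [← hg, Sylow.coe_subgroup_smul]
  change MulAut.conj g • ((S1 : Subgroup Y).map Y.subtype) ≤ _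
  rw [Subgroup.pointwise_smul_def]
  refine Subgroup.map_mono ?_
  exact Subgroup.map_subtype_le _

/-- Conjugate version with `g` on the other side. -/
theorem exists_map_conj_le (S : Sylow p G) {Y : Subgroup G} (hY : ¬ p ∣ Y.index) :
    ∃ g : G, (S : Subgroup G).map (MulAut.conj g).toMonoidHom ≤ Y := by
  obtain ⟨g, hg⟩ := exists_le_map_conj S hY
  refine ⟨g⁻¹, ?_⟩
  rintro _ ⟨x, hx, rfl⟩
  obtain ⟨y, hy, hyx⟩ := hg hx
  have : (MulAut.conj g⁻¹).toMonoidHom x = y := by
    rw [← hyx]
    simp [MulAut.conj_apply, mul_assoc]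
  rw [this]
  exact hy

end Cfsg.Agent.H240.SylowConj
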